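import Mathlib
import Cfsg.Agent.FGS.LcsLie

/-!
# Lie rings with a Frobenius group `13 : 3` of automorphisms

* `norm_zero`: if `φ` is fixed-point-free of order 13, `φ ψ = ψ φ ^ r` and `e` kills the norm
  `1 + ψ + ⋯ + ψ ^ (d - 1)`, with `r ^ k ≠ 1` mod 13 for `0 < k < d`, then `13 e = 0`.
* `lie_three`: a Lie ring of characteristic 2 with such `φ, ψ` (`r = 3`) in which the norms
  `u + ψ u + ψ ^ 2 u` commute has class at most 2.
-/

set_option autoImplicit false

open scoped TensorProduct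

namespace Cfsg.Agent.Crit

universe u

theorem end_sum_apply {M ι : Type*} [AddCommGroup M] (s : Finset ι) (f : ι → AddMonoid.End M)
    (x : M) : (∑ i ∈ s, f i) x = ∑ i ∈ s, f i x :=
  AddMonoidHom.finsetSum_apply f s x

theorem norm_zero {M : Type*} [AddCommGroup M] (φ ψ : AddMonoid.End M) (h13 : φ ^ 13 = 1)
    (hfix : ∀ x, φ x = x → x = 0) (r d e : ℕ) (hd : 0 < d) (hr : φ * ψ = ψ * φ ^ r)
    (hk : ∀ k, 0 < k → k < d → (r ^ k + 12).Coprime 13)
    (hN : ∀ x, e • (∑ k ∈ Finset.range d, ψ ^ k) x = 0) (x : M) : (13 * e) • x = 0 := by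
  have h1 : ∀ a, φ ^ a * ψ = ψ * φ ^ (r * a) := by
    intro a
    induction a with
    | zero => simp
    | succ a ih => rw [pow_succ, mul_assoc, hr, ← mul_assoc, ih, mul_assoc, ← pow_add, mul_add, mul_one]
  have h2 : ∀ k a, φ ^ a * ψ ^ k = ψ ^ k * φ ^ (r ^ k * a) := by
    intro k
    induction k with
    | zero => simp
    | succ k ih =>
      intro a
      rw [pow_succ, ← mul_assoc, ih, mul_assoc, h1, ← mul_assoc, pow_succ r, mul_comm (r ^ k) r,
        mul_assoc r]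
  have h3 : ∀ m : ℕ, m.Coprime 13 → ∑ a ∈ Finset.range 13, (φ ^ m) ^ a = 0 := by
    intro m hm
    have e1 : (φ ^ m) ^ 13 = 1 := by rw [← pow_mul, mul_comm, pow_mul, h13, one_pow]
    have e2 := mul_geom_sum (φ ^ m) 13
    rw [e1, sub_self, sub_mul, one_mul, sub_eq_zero] at e2
    obtain ⟨n, -, hn⟩ := Nat.exists_mul_mod_eq_one_of_coprime hm (by norm_num)
    have e3 : (φ ^ m) ^ n = φ := by
      rw [← pow_mul, pow_eq_pow_mod _ h13, hn, pow_one]
    have e4 : ∀ j, (φ ^ m) ^ j * ∑ a ∈ Finset.range 13, (φ ^ m) ^ a =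
        ∑ a ∈ Finset.range 13, (φ ^ m) ^ a := by
      intro j
      induction j with
      | zero => simp
      | succ j ih => rw [pow_succ, mul_assoc, e2, ih]
    have e5 := e4 n
    rw [e3] at e5
    ext y
    exact hfix _ (DFunLike.congr_fun e5 y)
  have h4 : ∑ a ∈ Finset.range 13, φ ^ a * (∑ k ∈ Finset.range d, ψ ^ k) * φ ^ (12 * a) =
      (13 : ℕ) := by
    have e1 : ∀ a, φ ^ a * (∑ k ∈ Finset.range d, ψ ^ k) * φ ^ (12 * a) =
        ∑ k ∈ Finset.range d, ψ ^ k * (φ ^ (r ^ k + 12)) ^ a := by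
      intro a
      rw [Finset.mul_sum, Finset.sum_mul]
      refine Finset.sum_congr rfl fun k _ => ?_
      rw [h2, mul_assoc, ← pow_add, ← pow_mul, add_mul]
    simp only [e1]
    rw [Finset.sum_comm, Finset.sum_eq_single 0]
    · simp [h13]
    · intro k hk' hk0
      rw [← Finset.mul_sum, h3 _ (hk k (Nat.pos_of_ne_zero hk0) (Finset.mem_range.1 hk')), mul_zero]
    · intro h; exact absurd (Finset.mem_range.2 hd) h
  have h5 : (13 : ℕ) • x = ∑ a ∈ Finset.range 13,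
      (φ ^ a) ((∑ k ∈ Finset.range d, ψ ^ k) ((φ ^ (12 * a)) x)) := by
    have := DFunLike.congr_fun h4 x
    rw [AddMonoid.End.natCast_apply] at this
    rw [← this, end_sum_apply]
    rfl
  rw [mul_comm, mul_smul, h5, Finset.smul_sum]
  refine Finset.sum_eq_zero fun a _ => ?_
  rw [← map_nsmul, hN, map_zero]

theorem deg_aux : ∀ i j : ZMod 13, i ≠ 0 → j ≠ 0 → i + j ≠ 0 → j ≠ 3 * i → j ≠ 9 * i →
    (i + 3 * j ≠ i + j ∧ i + 3 * (3 * j) ≠ i + j) ∧
    (3 * i + j ≠ i + j ∧ 3 * i + 3 * j ≠ i + j ∧ 3 * i + 3 * (3 * j) ≠ i + j) ∧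
    (3 * (3 * i) + j ≠ i + j ∧ 3 * (3 * i) + 3 * j ≠ i + j ∧
      3 * (3 * i) + 3 * (3 * j) ≠ i + j) := by
  decide +kernel

/-- `R i j`: the components of degrees `i`, `j` commute. -/
def Rel (i j : ZMod 13) : Prop := i = 0 ∨ j = 0 ∨ i + j = 0 ∨ (j ≠ 3 * i ∧ j ≠ 9 * i)

instance (i j : ZMod 13) : Decidable (Rel i j) := by unfold Rel; infer_instance

theorem deg_fin : ∀ i j l : ZMod 13, Rel i j ∨ Rel (i + j) l ∨ (Rel j l ∧ Rel i l) := by
  decide +kernel

section Ext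

variable {K R : Type} [CommRing K] [CommRing R] [Algebra K R] {L : Type u} [LieRing L]
  [LieAlgebra K L]

open FGS.GradedLie in
theorem lie_three_aux {d : ℕ} (b : Module.Basis (Fin d) K R) (i₀ : Fin d) (hb : b i₀ = 1) (ω : R)
    (hω : ∑ i ∈ Finset.range 13, ω ^ i = 0) (h2 : ∀ x : L, 2 • x = 0)
    (φ ψ : L →ₗ[K] L) (hφ : ∀ x y, φ ⁅x, y⁆ = ⁅φ x, φ y⁆) (hφp : φ ^ 13 = 1)
    (hfix : ∀ x, φ x = x → x = 0) (hr : φ * ψ = ψ * φ ^ 3)
    (hT : ∀ u v, ⁅u + ψ u + ψ (ψ u), v + ψ v + ψ (ψ v)⁆ = 0) (x y z : L) : ⁅⁅x, y⁆, z⁆ = 0 := by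
  classical
  have : Fact (Nat.Prime 13) := ⟨by norm_num⟩
  have hωp : ω ^ 13 = 1 := by
    have := mul_geom_sum ω 13
    rw [hω, mul_zero] at this
    exact (sub_eq_zero.1 this.symm)
  let χ : AddChar (ZMod 13) R := AddChar.zmodChar 13 hωp
  have hχ : ∑ s : ZMod 13, χ s = 0 := by
    rw [← hω]
    refine Finset.sum_bij (fun s _ => s.val) (fun s _ => Finset.mem_range.2 (ZMod.val_lt s))
      (fun s _ t _ h => ZMod.val_injective 13 h)
      (fun i hi => ⟨(i : ZMod 13), Finset.mem_univ _, ZMod.val_cast_of_lt (Finset.mem_range.1 hi)⟩)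
      (fun s _ => rfl)
  have hχ' : ∀ m : ZMod 13, m ≠ 0 → ∑ s : ZMod 13, χ (m * s) = 0 := by
    intro m hm
    rw [← hχ, ← Equiv.sum_comp (Equiv.mulLeft₀ m hm) χ]
    simp
  let Φ : Module.End R (R ⊗[K] L) := LinearMap.baseChange R φ
  let Ψ : Module.End R (R ⊗[K] L) := LinearMap.baseChange R ψ
  have hΦp : Φ ^ 13 = 1 := by
    simp only [Φ]
    rw [← LinearMap.baseChange_pow, hφp, LinearMap.baseChange_one]
  have hΦΨ : Φ * Ψ = Ψ * Φ ^ 3 := by
    simp only [Φ, Ψ]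
    rw [← LinearMap.baseChange_pow, ← LinearMap.baseChange_mul, ← LinearMap.baseChange_mul, hr]
  have hΦ : ∀ x y, Φ ⁅x, y⁆ = ⁅Φ x, Φ y⁆ := by
    intro x y
    induction x using TensorProduct.induction_on with
    | zero => simp
    | add a b ha hb => simp [add_lie, ha, hb]
    | tmul r a =>
      induction y using TensorProduct.induction_on with
      | zero => simp
      | add a b ha hb => simp only [lie_add, map_add, ha, hb]
      | tmul s b => simp [Φ, hφ]
  have hT' : ∀ u v : R ⊗[K] L, ⁅u + Ψ u + Ψ (Ψ u), v + Ψ v + Ψ (Ψ v)⁆ = 0 := by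
    intro u v
    induction u using TensorProduct.induction_on with
    | zero => simp
    | add a b ha hb =>
      rw [show a + b + Ψ (a + b) + Ψ (Ψ (a + b)) = (a + Ψ a + Ψ (Ψ a)) + (b + Ψ b + Ψ (Ψ b)) by
        simp only [map_add]; abel, add_lie, ha, hb, add_zero]
    | tmul r a =>
      induction v using TensorProduct.induction_on with
      | zero => simp
      | add c b hc hb =>
        rw [show c + b + Ψ (c + b) + Ψ (Ψ (c + b)) = (c + Ψ c + Ψ (Ψ c)) + (b + Ψ b + Ψ (Ψ b)) by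
          simp only [map_add]; abel, lie_add, hc, hb, add_zero]
      | tmul s b =>
        simp only [Ψ, LinearMap.baseChange_tmul, ← TensorProduct.tmul_add,
          LieAlgebra.ExtendScalars.bracket_tmul, hT, TensorProduct.tmul_zero]
  have h2' : ∀ t : R ⊗[K] L, (13 : ℕ) • t = t := by
    intro t
    have : (2 : ℕ) • t = 0 := by
      induction t using TensorProduct.induction_on with
      | zero => simp
      | add a b ha hb => rw [smul_add, ha, hb, add_zero]
      | tmul r a => rw [← TensorProduct.tmul_smul, h2, TensorProduct.tmul_zero]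
    rw [show (13 : ℕ) = 6 * 2 + 1 by norm_num, add_smul, mul_smul, this, smul_zero, zero_add,
      one_smul]
  let A : ZMod 13 → R ⊗[K] L → Prop := fun i x => Φ x = χ i • x
  have hA : ∀ i j x y, A i x → A j y → A (i + j) ⁅x, y⁆ := by
    intro i j x y hx hy
    change Φ x = χ i • x at hx
    change Φ y = χ j • y at hy
    change Φ ⁅x, y⁆ = χ (i + j) • ⁅x, y⁆
    rw [hΦ, hx, hy, smul_lie, lie_smul, smul_smul, AddChar.map_add_eq_mul]
  have hA0 : ∀ x, A 0 x → x = 0 := by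
    intro x hx
    change Φ x = χ 0 • x at hx
    rw [AddChar.map_zero_eq_one, one_smul] at hx
    have hco : ∀ (f : R →ₗ[K] K) (t : R ⊗[K] L), coord f (Φ t) = φ (coord f t) := by
      intro f t
      induction t using TensorProduct.induction_on with
      | zero => simp
      | add a b ha hb => simp only [map_add, ha, hb]
      | tmul r a => simp [Φ, coord_tmul]
    rw [eq_sum_coord b x]
    refine Finset.sum_eq_zero fun i _ => ?_
    rw [hfix (coord (b.coord i) x) (by rw [← hco, hx]), TensorProduct.tmul_zero]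
  have hAp : ∀ i x, A i x → ∀ n : ℕ, (Φ ^ n) x = χ (i * n) • x := by
    intro i x hx n
    change Φ x = χ i • x at hx
    induction n with
    | zero => simp
    | succ n ih =>
      rw [pow_succ', Module.End.mul_apply, ih, map_smul, hx, smul_smul, ← AddChar.map_add_eq_mul]
      congr 2; push_cast; ring
  have hAΨ : ∀ i x, A i x → A (3 * i) (Ψ x) := by
    intro i x hx
    change Φ (Ψ x) = χ (3 * i) • Ψ x
    rw [← Module.End.mul_apply, hΦΨ, Module.End.mul_apply, hAp i x hx, map_smul, mul_comm]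
    rfl
  let P : ZMod 13 → Module.End R (R ⊗[K] L) := fun i => ∑ s : ZMod 13, χ (-(i * s)) • Φ ^ s.val
  have hP : ∀ i x, P i x = ∑ s : ZMod 13, χ (-(i * s)) • (Φ ^ s.val) x := by
    intro i x
    simp only [P, LinearMap.coe_sum, Finset.sum_apply, LinearMap.smul_apply]
  have hpow : ∀ s : ZMod 13, Φ ^ (s + 1).val = Φ * Φ ^ s.val := by
    intro s
    rw [ZMod.val_add, ← pow_eq_pow_mod _ hΦp, ZMod.val_one, pow_succ']
  have hP1 : ∀ i x, A i (P i x) := by
    intro i x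
    change Φ _ = χ i • _
    rw [hP, map_sum, Finset.smul_sum, ← Equiv.sum_comp (Equiv.addRight (1 : ZMod 13))
      (fun s => χ i • χ (-(i * s)) • (Φ ^ s.val) x)]
    refine Finset.sum_congr rfl fun s _ => ?_
    simp only [Equiv.coe_addRight]
    rw [hpow, smul_smul, ← AddChar.map_add_eq_mul, map_smul, Module.End.mul_apply,
      show i + -(i * (s + 1)) = -(i * s) by ring]
  have hP2 : ∀ x, ∑ i : ZMod 13, P i x = x := by
    intro x
    simp only [hP]
    rw [Finset.sum_comm, Finset.sum_eq_single (0 : ZMod 13)]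
    · simpa [ZMod.card] using h2' x
    · intro s _ hs
      rw [← Finset.sum_smul]
      have : ∑ i : ZMod 13, χ (-(i * s)) = 0 := by
        rw [← hχ' (-s) (neg_ne_zero.2 hs)]
        exact Finset.sum_congr rfl fun i _ => by congr 1; ring
      rw [this, zero_smul]
    · simp
  have hP3 : ∀ m k x, A k x → P m x = (∑ s : ZMod 13, χ ((k - m) * s)) • x := by
    intro m k x hx
    rw [hP, Finset.sum_smul]
    refine Finset.sum_congr rfl fun s _ => ?_
    rw [hAp k x hx, smul_smul, ← AddChar.map_add_eq_mul, ZMod.natCast_zmod_val]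
    congr 2; ring
  have hP4 : ∀ m k x, A k x → k ≠ m → P m x = 0 := by
    intro m k x hx hk
    rw [hP3 m k x hx, hχ' _ (sub_ne_zero.2 hk), zero_smul]
  have hP5 : ∀ m x, A m x → P m x = x := by
    intro m x hx
    rw [hP3 m m x hx]
    have := h2' x
    rw [← Nat.cast_smul_eq_nsmul R] at this
    simpa [ZMod.card] using this
  have hR : ∀ i j x y, Rel i j → A i x → A j y → ⁅x, y⁆ = 0 := by
    intro i j x y h hx hy
    by_cases hi : i = 0
    · rw [hA0 x (hi ▸ hx), zero_lie]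
    by_cases hj : j = 0
    · rw [hA0 y (hj ▸ hy), lie_zero]
    by_cases hij : i + j = 0
    · exact hA0 _ (hij ▸ hA i j x y hx hy)
    rcases h with h | h | h | h
    · exact absurd h hi
    · exact absurd h hj
    · exact absurd h hij
    obtain ⟨⟨a1, a2⟩, ⟨a3, a4, a5⟩, a6, a7, a8⟩ := deg_aux i j hi hj hij h.1 h.2
    have hx1 := hAΨ _ _ hx
    have hx2 := hAΨ _ _ hx1
    have hy1 := hAΨ _ _ hy
    have hy2 := hAΨ _ _ hy1
    have := congrArg (P (i + j)) (hT' x y)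
    simp only [add_lie, lie_add, map_add, map_zero] at this
    rw [hP5 _ _ (hA _ _ _ _ hx hy), hP4 _ _ _ (hA _ _ _ _ hx hy1) a1,
      hP4 _ _ _ (hA _ _ _ _ hx hy2) a2, hP4 _ _ _ (hA _ _ _ _ hx1 hy) a3,
      hP4 _ _ _ (hA _ _ _ _ hx1 hy1) a4, hP4 _ _ _ (hA _ _ _ _ hx1 hy2) a5,
      hP4 _ _ _ (hA _ _ _ _ hx2 hy) a6, hP4 _ _ _ (hA _ _ _ _ hx2 hy1) a7,
      hP4 _ _ _ (hA _ _ _ _ hx2 hy2) a8] at this
    simpa using this
  have hfin : ∀ x y z : R ⊗[K] L, ⁅⁅x, y⁆, z⁆ = 0 := by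
    intro x y z
    rw [← hP2 x, ← hP2 y, ← hP2 z]
    simp only [sum_lie, lie_sum]
    refine Finset.sum_eq_zero fun l _ => Finset.sum_eq_zero fun j _ =>
      Finset.sum_eq_zero fun i _ => ?_
    rcases deg_fin i j l with h | h | ⟨h, h'⟩
    · rw [hR _ _ _ _ h (hP1 _ _) (hP1 _ _), zero_lie]
    · exact hR _ _ _ _ h (hA _ _ _ _ (hP1 _ _) (hP1 _ _)) (hP1 _ _)
    · rw [lie_lie, hR _ _ _ _ h (hP1 _ _) (hP1 _ _), hR _ _ _ _ h' (hP1 _ _) (hP1 _ _)]
      simp
  have h3 := hfin (1 ⊗ₜ[K] x) (1 ⊗ₜ[K] y) (1 ⊗ₜ[K] z)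
  rw [LieAlgebra.ExtendScalars.bracket_tmul, LieAlgebra.ExtendScalars.bracket_tmul] at h3
  have h4 := congrArg (coord (b.coord i₀)) h3
  rw [coord_tmul, map_zero, one_mul, one_mul, ← hb] at h4
  simpa using h4

end Ext

open Polynomial in
theorem lie_three {L : Type u} [LieRing L] (h2 : ∀ x : L, 2 • x = 0) (φ ψ : AddMonoid.End L)
    (hφ : ∀ x y, φ ⁅x, y⁆ = ⁅φ x, φ y⁆) (hφp : φ ^ 13 = 1)
    (hfix : ∀ x, φ x = x → x = 0) (hr : φ * ψ = ψ * φ ^ 3)
    (hT : ∀ u v, ⁅u + ψ u + ψ (ψ u), v + ψ v + ψ (ψ v)⁆ = 0) (x y z : L) : ⁅⁅x, y⁆, z⁆ = 0 := by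
  have : Fact (Nat.Prime 13) := ⟨by norm_num⟩
  have hm : (cyclotomic 13 ℤ).Monic := cyclotomic.monic 13 ℤ
  let pb := AdjoinRoot.powerBasis' hm
  have hd : 0 < pb.dim := by
    change 0 < (cyclotomic 13 ℤ).natDegree
    rw [natDegree_cyclotomic]
    exact Nat.totient_pos.2 (by norm_num)
  have hpw : ∀ (n : ℕ) (x : L), ((AddMonoidHom.toIntLinearMap φ) ^ n) x = (φ ^ n) x := by
    intro n
    induction n with
    | zero => intro x; rfl
    | succ n ih => intro x; rw [pow_succ, pow_succ, Module.End.mul_apply, ih]; rfl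
  refine lie_three_aux pb.basis ⟨0, hd⟩ (by simp) (AdjoinRoot.root (cyclotomic 13 ℤ)) ?_ h2
    (AddMonoidHom.toIntLinearMap φ) (AddMonoidHom.toIntLinearMap ψ) hφ ?_ hfix ?_ hT x y z
  · have := AdjoinRoot.aeval_eq (f := cyclotomic 13 ℤ) (cyclotomic 13 ℤ)
    rw [AdjoinRoot.mk_self] at this
    rw [← this]
    generalize AdjoinRoot.root (cyclotomic 13 ℤ) = w
    have h2 : aeval w (cyclotomic 13 ℤ) = aeval w (∑ i ∈ Finset.range 13, (X : ℤ[X]) ^ i) :=
      congrArg _ (cyclotomic_prime ℤ 13)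
    rw [h2]
    simp
  · ext x
    rw [hpw, hφp]; rfl
  · ext x
    rw [Module.End.mul_apply, Module.End.mul_apply, hpw]
    exact DFunLike.congr_fun hr x

end Cfsg.Agent.Crit
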