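import Mathlib
import Cfsg.Agent.Crit.Lie
import Cfsg.Agent.S0032

/-!
# 2-groups with a Frobenius group `13 : 3` of automorphisms

`exp_four`: if `A` is a normal 2-subgroup of `G`, `x` of order 13 acts fixed-point-freely on `A`,
`g ^ 3 = 1`, `g⁻¹ x g ∈ x ^ 3 A` and all elements of `A g` have order dividing 6, then `A` has
exponent dividing 4.
-/

set_option autoImplicit false

open scoped commutatorElement

namespace Cfsg.Agent.Crit

open FGS.LcsLie Subgroup

variable {G : Type*} [Group G]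

theorem exists_act (A : Subgroup G) [A.Normal] : ∃ F : G →* AddMonoid.End (Lie A),
    (∀ c n (a : A), a ∈ gam A n → F c (cls n a) = cls n (MulAut.conjNormal c a)) := by
  have h : ∀ c : G, ∃ F : Lie A →+ Lie A,
      ∀ n (a : A), a ∈ gam A n → F (cls n a) = cls n (MulAut.conjNormal c a) := by
    intro c
    have hm : ∀ n (a : A), a ∈ gam A n → MulAut.conjNormal c a ∈ gam A n := fun n a ha =>
      map_mem (MulAut.conjNormal c : MulAut A).toMonoidHom ha
    exact exists_lift (G := A) (fun n a => cls n (MulAut.conjNormal c (a : A)))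
      (fun n x y => by rw [Subgroup.coe_mul, map_mul, cls_mul (hm _ _ x.2) (hm _ _ y.2)])
      (fun n x hx => cls_eq_zero (hm _ _ hx))
  choose F hF using h
  refine ⟨⟨⟨F, ?_⟩, ?_⟩, hF⟩
  · refine hom_ext fun n a ha => ?_
    rw [hF _ _ _ ha, map_one]; rfl
  · intro c d
    refine hom_ext fun n a ha => ?_
    change F (c * d) _ = F c (F d _)
    have h1 : MulAut.conjNormal d a ∈ gam A n :=
      map_mem (MulAut.conjNormal d : MulAut A).toMonoidHom ha
    rw [hF _ _ _ ha, hF _ _ _ ha, hF _ _ _ h1, map_mul]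
    rfl

/-- An `A`-class normalized by `g` contains an element centralized by `g`. -/
theorem exists_conj_comm [Finite G] (A : Subgroup G) [hn : A.Normal] (hA : IsPGroup 2 A) {g t a : G}
    (hg : g ^ 3 = 1) (ha : a ∈ A) (ht : Commute (a * g) t) :
    ∃ u ∈ A, Commute g (u * t * u⁻¹) := by
  classical
  have : Fact (Nat.Prime 3) := ⟨by norm_num⟩
  let _ : MulAction A G := MulAction.compHom G ((MulAut.conj : G →* MulAut G).comp A.subtype)
  have hs : ∀ (u : A) (s : G), u • s = u * s * (u : G)⁻¹ := fun u s => rfl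
  have hgt : g * t * g⁻¹ = a⁻¹ * t * a := by
    have := ht.eq
    calc g * t * g⁻¹ = a⁻¹ * (a * g * t) * g⁻¹ := by group
      _ = _ := by rw [this]; group
  have h1 : ∀ s, s ∈ MulAction.orbit A t → g * s * g⁻¹ ∈ MulAction.orbit A t := by
    rintro _ ⟨u, rfl⟩
    refine ⟨⟨g * u * g⁻¹ * a⁻¹, mul_mem (hn.conj_mem _ u.2 g) (inv_mem ha)⟩, ?_⟩
    simp only [hs]
    calc g * u * g⁻¹ * a⁻¹ * t * (g * u * g⁻¹ * a⁻¹)⁻¹
        = g * u * g⁻¹ * (a⁻¹ * t * a) * (g * u * g⁻¹)⁻¹ := by group
      _ = _ := by rw [← hgt]; group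
  let σ : Equiv.Perm (MulAction.orbit A t) :=
    Equiv.Perm.subtypePerm (MulAut.conj g).toEquiv (fun s => ⟨fun h => by
      have := h1 _ (h1 _ h)
      have e : g * (g * (MulAut.conj g).toEquiv s * g⁻¹) * g⁻¹ = g ^ 3 * s * (g ^ 3)⁻¹ := by
        change g * (g * (g * s * g⁻¹) * g⁻¹) * g⁻¹ = _
        simp only [pow_three, mul_inv_rev, mul_assoc]
      rwa [e, hg, one_mul, inv_one, mul_one] at this, h1 s⟩)
  have hσ : σ ^ 3 ^ 1 = 1 := by
    ext s
    change g * (g * (g * s * g⁻¹) * g⁻¹) * g⁻¹ = s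
    calc g * (g * (g * s * g⁻¹) * g⁻¹) * g⁻¹ = g ^ 3 * s * (g ^ 3)⁻¹ := by
          simp only [pow_three, mul_inv_rev, mul_assoc]
      _ = s := by rw [hg]; group
  have := Fintype.ofFinite (MulAction.orbit A t)
  have hc : ¬ 3 ∣ Fintype.card (MulAction.orbit A t) := by
    intro h
    obtain ⟨k, hk⟩ := IsPGroup.iff_card.1 hA
    have h2 : Nat.card (MulAction.orbit A t) ∣ Nat.card A := by
      rw [Nat.card_coe_set_eq, ← MulAction.index_stabilizer]
      exact index_dvd_card _
    rw [hk, Nat.card_eq_fintype_card] at h2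
    have := Nat.Prime.dvd_of_dvd_pow Nat.prime_three (h.trans h2)
    omega
  obtain ⟨⟨_, u, rfl⟩, hu⟩ := Equiv.Perm.exists_fixed_point_of_prime hc hσ
  refine ⟨u, u.2, ?_⟩
  have := congrArg Subtype.val hu
  change g * (u * t * (u : G)⁻¹) * g⁻¹ = u * t * (u : G)⁻¹ at this
  exact mul_inv_eq_iff_eq_mul.1 this

theorem exp_four [Finite G] (A : Subgroup G) [hn : A.Normal] (hA : IsPGroup 2 A) {x g : G}
    (hx : x ^ 13 = 1) (hfix : ∀ a ∈ A, Commute x a → a = 1) (hg : g ^ 3 = 1)
    (hr : (x ^ 3)⁻¹ * (g⁻¹ * x * g) ∈ A) (h6 : ∀ a ∈ A, (a * g) ^ 6 = 1) :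
    ∀ a ∈ A, a ^ 4 = 1 := by
  have : Fact (Nat.Prime 2) := ⟨Nat.prime_two⟩
  obtain ⟨F, hF⟩ := exists_act A
  have hm : ∀ (c : G) n (a : A), a ∈ gam A n → MulAut.conjNormal c a ∈ gam A n := fun c n a ha =>
    map_mem (MulAut.conjNormal c : MulAut A).toMonoidHom ha
  have hFA : ∀ c ∈ A, F c = 1 := by
    intro c hc
    refine hom_ext fun n a ha => ?_
    exact (hF _ _ _ ha).trans (cls_conj ha ⟨c, hc⟩)
  have hlie : ∀ c u v, F c ⁅u, v⁆ = ⁅F c u, F c v⁆ := by
    intro c u v
    refine induction_on (P := fun u => F c ⁅u, v⁆ = ⁅F c u, F c v⁆) (by simp) ?_ ?_ u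
    · intro i a ha
      refine induction_on (P := fun v => F c ⁅cls i a, v⁆ = ⁅F c (cls i a), F c v⁆) (by simp) ?_ ?_ v
      · intro j b hb
        rw [lie_cls ha hb, hF _ _ _ ha, hF _ _ _ hb, hF _ _ _ (comm_mem ha hb),
          lie_cls (hm _ _ _ ha) (hm _ _ _ hb), map_commutatorElement]
      · intro u v hu hv
        simp only [lie_add, map_add, hu, hv]
    · intro u v hu hv
      simp only [add_lie, map_add, hu, hv]
  have hφp : F x ^ 13 = 1 := by rw [← map_pow, hx, map_one]
  have hφψ : F x * F g = F g * F x ^ 3 := by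
    have := hFA _ hr
    rw [← map_pow, ← map_mul, ← map_mul, show x * g = g * x ^ 3 * ((x ^ 3)⁻¹ * (g⁻¹ * x * g)) by group,
      map_mul (x := g * x ^ 3), this, mul_one]
  -- the norm of a homogeneous element
  have hsq : ∀ c ∈ A, Commute g c → c * c = 1 := by
    intro c hc h
    have h1 := h6 c hc
    rw [h.symm.mul_pow, show g ^ 6 = (g ^ 3) ^ 2 by group, hg, one_pow, mul_one] at h1
    obtain ⟨k, hk⟩ := IsPGroup.iff_orderOf.1 hA ⟨c, hc⟩
    rw [orderOf_mk] at hk
    have h2 : orderOf c ∣ 2 * 3 := orderOf_dvd_of_pow_eq_one h1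
    have h3 : orderOf c ∣ 2 := by
      refine Nat.Coprime.dvd_of_dvd_mul_right ?_ h2
      rw [hk]; exact Nat.Coprime.pow_left _ (by norm_num)
    rw [← pow_two]
    exact orderOf_dvd_iff_pow_eq_one.1 h3
  have hnorm : ∀ n (a : A), a ∈ gam A n → ∃ c : A, c ∈ gam A n ∧ Commute g c ∧
      cls n a + F g (cls n a) + F g (F g (cls n a)) = cls n c := by
    intro n a ha
    have h1 := hm g _ _ ha
    have h2 := hm g _ _ h1
    set t : A := a * MulAut.conjNormal g a * MulAut.conjNormal g (MulAut.conjNormal g a) with ht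
    have h3 : (t : G) = (a * g) ^ 3 := by
      simp only [ht, coe_mul, MulAut.conjNormal_apply]
      calc (a : G) * (g * a * g⁻¹) * (g * (g * a * g⁻¹) * g⁻¹) = (a * g) ^ 3 * (g ^ 3)⁻¹ := by
            simp only [pow_succ, pow_zero]; group
        _ = _ := by rw [hg]; group
    obtain ⟨u, hu, hc⟩ := exists_conj_comm A hA hg a.2 (t := t)
      (by rw [h3]; exact Commute.self_pow _ _)
    have h4 : t ∈ gam A n := mul_mem (mul_mem ha h1) h2
    refine ⟨⟨u, hu⟩ * t * ⟨u, hu⟩⁻¹, conj_mem h4 _, hc, ?_⟩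
    rw [cls_conj h4, hF _ _ _ ha, hF _ _ _ h1, ht, cls_mul (mul_mem ha h1) h2, cls_mul ha h1]
  have hnil : Group.IsNilpotent A := hA.isNilpotent
  -- fixed points
  have hfixL : ∀ y, F x y = y → y = 0 := by
    classical
    have hpr : ∀ m : ℕ, ∃ pr : Lie A →+ Lie A, ∀ n (a : A), a ∈ gam A n →
        pr (cls n a) = if n = m then cls n a else 0 := fun m =>
      exists_lift (G := A) (fun n (a : gam A n) => if n = m then cls n (a : A) else 0)
        (fun n x y => by
          split_ifs
          · exact cls_mul x.2 y.2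
          · simp)
        (fun n x hx => by simp [cls_eq_zero hx])
    choose pr hpr using hpr
    intro y hy
    have h1 : ∀ m (y : Lie A), F x (pr m y) = pr m (F x y) := by
      intro m y
      refine induction_on (P := fun y => F x (pr m y) = pr m (F x y)) (by simp) ?_ ?_ y
      · intro n a ha
        rw [hF _ _ _ ha, hpr _ _ _ ha, hpr _ _ _ (hm _ _ _ ha)]
        split_ifs
        · exact hF _ _ _ ha
        · simp
      · intro u v hu hv
        simp only [map_add, hu, hv]
    have h2 : ∀ m (y : Lie A), ∃ a ∈ gam A m, pr m y = cls m a := by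
      intro m y
      refine induction_on (P := fun y => ∃ a ∈ gam A m, pr m y = cls m a)
        ⟨1, one_mem _, by simp [cls_one]⟩ ?_ ?_ y
      · intro n a ha
        rw [hpr _ _ _ ha]
        split_ifs with h
        · subst h; exact ⟨a, ha, rfl⟩
        · exact ⟨1, one_mem _, (cls_one m).symm⟩
      · rintro u v ⟨a, ha, hu⟩ ⟨b, hb, hv⟩
        exact ⟨a * b, mul_mem ha hb, by rw [map_add, hu, hv, cls_mul ha hb]⟩
    have h3 : ∀ y : Lie A, ∃ N, ∀ M, N ≤ M → ∑ m ∈ Finset.range M, pr m y = y := by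
      intro y
      refine induction_on (P := fun y => ∃ N, ∀ M, N ≤ M → ∑ m ∈ Finset.range M, pr m y = y)
        ⟨0, by simp⟩ ?_ ?_ y
      · intro n a ha
        refine ⟨n + 1, fun M hM => ?_⟩
        simp only [hpr _ _ _ ha]
        rw [Finset.sum_ite_eq, if_pos (Finset.mem_range.2 (by omega))]
      · rintro u v ⟨N₁, hu⟩ ⟨N₂, hv⟩
        refine ⟨max N₁ N₂, fun M hM => ?_⟩
        simp only [map_add, Finset.sum_add_distrib]
        rw [hu M (le_trans (le_max_left _ _) hM), hv M (le_trans (le_max_right _ _) hM)]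
    obtain ⟨N, hN⟩ := h3 y
    rw [← hN N le_rfl]
    refine Finset.sum_eq_zero fun m _ => ?_
    obtain ⟨a, ha, hma⟩ := h2 m y
    have h4 : cls m (MulAut.conjNormal x a) = cls m a := by
      have := h1 m y
      rwa [hy, hma, hF _ _ _ ha] at this
    rw [hma]
    refine cls_eq_zero (S0032.result (MulAut.conjNormal x : MulAut A) ?_ (gam A (m + 1))
      (hm x _) a ?_)
    · intro b hb
      have hb' : x * b * x⁻¹ = b := congrArg Subtype.val hb
      exact Subtype.ext (hfix b b.2 (mul_inv_eq_iff_eq_mul.1 hb'))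
    · rw [← cls_eq_zero_iff (mul_mem (inv_mem (hm _ _ _ ha)) ha),
        cls_mul (inv_mem (hm _ _ _ ha)) ha, cls_inv (hm _ _ _ ha), h4, neg_add_cancel]
  have h2pow : ∀ y : Lie A, (13 * 2) • y = 0 := by
    refine norm_zero (F x) (F g) hφp hfixL 3 3 2 (by norm_num) hφψ ?_ ?_
    · intro k h1 h2
      interval_cases k <;> norm_num
    · intro y
      have e : (∑ k ∈ Finset.range 3, F g ^ k) y = y + F g y + F g (F g y) := by
        rw [end_sum_apply]
        simp only [Finset.sum_range_succ, Finset.sum_range_zero, zero_add, pow_zero, pow_succ,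
          one_mul]
        rfl
      rw [e]
      refine induction_on (P := fun y => 2 • (y + F g y + F g (F g y)) = 0) (by simp) ?_ ?_ y
      · intro n a ha
        obtain ⟨c, hc, h1, h2⟩ := hnorm n a ha
        rw [h2, ← cls_pow hc, pow_two, show c * c = 1 from Subtype.ext (hsq c c.2 h1), cls_one]
      · intro u v hu hv
        rw [show u + v + F g (u + v) + F g (F g (u + v)) =
          (u + F g u + F g (F g u)) + (v + F g v + F g (F g v)) by simp only [map_add]; abel,
          smul_add, hu, hv, add_zero]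
  have h2 : ∀ y : Lie A, 2 • y = 0 := by
    obtain ⟨k, hk⟩ := IsPGroup.iff_card.1 hA
    have h1 : ∀ y : Lie A, 2 ^ k • y = 0 := by
      intro y
      refine induction_on (P := fun y => 2 ^ k • y = 0) (by simp) ?_ ?_ y
      · intro n a ha
        rw [← cls_pow ha, ← hk, pow_card_eq_one', cls_one]
      · intro u v hu hv
        rw [smul_add, hu, hv, add_zero]
    intro y
    have e1 := addOrderOf_dvd_of_nsmul_eq_zero (h1 y)
    have e2 := addOrderOf_dvd_of_nsmul_eq_zero (h2pow y)
    refine addOrderOf_dvd_iff_nsmul_eq_zero.1 (Nat.Coprime.dvd_of_dvd_mul_left ?_ e2)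
    exact Nat.Coprime.coprime_dvd_left e1 (Nat.Coprime.pow_left _ (by norm_num))
  have h3 := lie_three h2 (F x) (F g) (hlie x) hφp hfixL hφψ (by
    intro u v
    refine induction_on (P := fun u => ⁅u + F g u + F g (F g u), v + F g v + F g (F g v)⁆ = 0)
      (by simp) ?_ ?_ u
    · intro i a ha
      obtain ⟨c, hc, h1, h2⟩ := hnorm i a ha
      rw [h2]
      refine induction_on (P := fun v => ⁅cls i c, v + F g v + F g (F g v)⁆ = 0) (by simp) ?_ ?_ v
      · intro j b hb
        obtain ⟨c', hc', h1', h2'⟩ := hnorm j b hb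
        have e1 : c * c = 1 := Subtype.ext (hsq c c.2 h1)
        have e2 : c' * c' = 1 := Subtype.ext (hsq c' c'.2 h1')
        have e3 : c * c' * (c * c') = 1 := Subtype.ext (hsq _ (c * c').2 (h1.mul_right h1'))
        rw [h2', lie_cls hc hc', commutatorElement_def, inv_eq_of_mul_eq_one_right e1,
          inv_eq_of_mul_eq_one_right e2, mul_assoc, e3, cls_one]
      · intro u v hu hv
        rw [show u + v + F g (u + v) + F g (F g (u + v)) =
          (u + F g u + F g (F g u)) + (v + F g v + F g (F g v)) by simp only [map_add]; abel,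
          lie_add, hu, hv, add_zero]
    · intro u w hu hw
      rw [show u + w + F g (u + w) + F g (F g (u + w)) =
        (u + F g u + F g (F g u)) + (w + F g w + F g (F g w)) by simp only [map_add]; abel,
        add_lie, hu, hw, add_zero])
  have h4 : ∀ y ∈ FGS.GradedLie.Gam (Lie A) 2, y = 0 := by
    intro y hy
    induction hy using AddSubgroup.closure_induction with
    | mem y hy =>
      obtain ⟨u, hu, z, rfl⟩ := hy
      induction hu using AddSubgroup.closure_induction with
      | mem u hu =>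
        obtain ⟨v, -, w, rfl⟩ := hu
        exact h3 v w z
      | zero => simp
      | add u v _ _ h1 h2 => rw [add_lie, h1, h2, add_zero]
      | neg u _ h1 => rw [neg_lie, h1, neg_zero]
    | zero => rfl
    | add u v _ _ h1 h2 => rw [h1, h2, add_zero]
    | neg u _ h1 => rw [h1, neg_zero]
  have h5 : gam A 2 ≤ gam A 3 := fun a ha =>
    (cls_eq_zero_iff ha).1 (h4 _ (cls_mem_Gam 2 a ha))
  have h6 : ∀ n, gam A 2 ≤ gam A (n + 2) := by
    intro n
    induction n with
    | zero => exact le_rfl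
    | succ n ih => exact h5.trans (commutator_mono ih le_rfl)
  obtain ⟨n, hn⟩ := Subgroup.nilpotent_iff_lowerCentralSeries.1 hnil
  intro a ha
  have e1 : (⟨a, ha⟩ : A) ^ 2 ∈ gam A 1 :=
    (cls_eq_zero_iff (pow_mem (mem_top _) _)).1 (by rw [cls_pow (mem_top _), h2])
  have e2 : ((⟨a, ha⟩ : A) ^ 2) ^ 2 ∈ gam A 2 :=
    (cls_eq_zero_iff (pow_mem e1 _)).1 (by rw [cls_pow e1, h2])
  have e3 := gam_anti (Nat.le_add_right n 2) (h6 n e2)
  rw [gam, hn, mem_bot, ← pow_mul] at e3
  exact congrArg Subtype.val e3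

end Cfsg.Agent.Crit
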