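import Mathlib
import Cfsg.Agent.Crit.Exp
import Cfsg.Agent.S0058
import Cfsg.Agent.FGS.RankOneStruct
import Cfsg.Agent.Solv.FpfThompson

/-!
# Solvable groups with element orders `1, 2, 3, 4, 6, 8, 13` have no normal `13'`-subgroup
-/

set_option autoImplicit false

namespace Cfsg.Agent.Crit

open Subgroup FGS.FrobCompl

/-- The element orders of `L₃(3)`. -/
def Om (n : ℕ) : Prop := n = 1 ∨ n = 2 ∨ n = 3 ∨ n = 4 ∨ n = 6 ∨ n = 8 ∨ n = 13

instance (n : ℕ) : Decidable (Om n) := by unfold Om; infer_instance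

/-- All element orders are element orders of `L₃(3)`. -/
def Spec (G : Type*) [Group G] : Prop := ∀ g : G, Om (orderOf g)

theorem Om.of_dvd {m n : ℕ} (h : Om n) (hd : m ∣ n) : Om m := by
  have h1 : ∀ n ≤ 13, ∀ m ≤ 13, Om n → m ∣ n → Om m := by decide
  have h2 : 0 < n ∧ n ≤ 13 := by unfold Om at h; omega
  exact h1 n h2.2 m ((Nat.le_of_dvd h2.1 hd).trans h2.2) h hd

variable {G : Type*} [Group G]

theorem Spec.of_surj {X : Type*} [Group X] (h : Spec G) (f : G →* X) (hf : Function.Surjective f) :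
    Spec X := fun x => by
  obtain ⟨g, rfl⟩ := hf x
  exact (h g).of_dvd (orderOf_map_dvd f g)

theorem Spec.sub (h : Spec G) (H : Subgroup G) : Spec H := fun x => by
  rw [← orderOf_coe]; exact h x

theorem Spec.eq_one (h : Spec G) {x y : G} (hc : Commute x y) (hx : 4 ∣ orderOf x ∨ orderOf x = 13)
    (hco : (orderOf x).Coprime (orderOf y)) : y = 1 := by
  have h1 := h (x * y)
  rw [hc.orderOf_mul_eq_mul_orderOf_of_coprime hco] at h1
  have h2 := h x
  have h3 := h y
  rw [← orderOf_eq_one_iff]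
  generalize orderOf x = a at *
  generalize orderOf y = b at *
  rcases h2 with rfl | rfl | rfl | rfl | rfl | rfl | rfl <;>
  rcases h3 with rfl | rfl | rfl | rfl | rfl | rfl | rfl <;> revert h1 hx hco <;> decide

theorem Spec.pow13 (h : Spec G) {x y : G} (hc : Commute x y) (hx : orderOf x = 13) :
    y ^ 13 = 1 := by
  by_cases hy : orderOf y = 13
  · rw [← hy, pow_orderOf_eq_one]
  · rw [h.eq_one hc (Or.inr hx) ?_, one_pow]
    rw [hx]
    rcases h y with e | e | e | e | e | e | e <;> first | exact absurd e hy | rw [e]; decide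

theorem Spec.pow8 (h : Spec G) {x y : G} (hc : Commute x y) (hx : orderOf x = 8) :
    y ^ 8 = 1 := by
  refine h.eq_one (hc.pow_right 8) (Or.inl (by rw [hx]; decide)) ?_
  rw [hx, orderOf_pow' _ (by norm_num)]
  rcases h y with e | e | e | e | e | e | e <;> rw [e] <;> decide

theorem rankOne_of_fpf [Finite G] {H K : Subgroup G} (hK : K ≠ ⊥)
    (hn : H ≤ normalizer (K : Set G)) (hco : (Nat.card H).Coprime (Nat.card K))
    (hf : ∀ h ∈ H, h ≠ 1 → ∀ k ∈ K, Commute h k → k = 1) : RankOne H := by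
  intro A hA
  by_contra hc
  have : IsMulCommutative (A.map H.subtype) := inferInstance
  have h1 := S0058.result (A.map H.subtype) K (fun h => hc
    (isCyclic_of_surjective _ (A.equivMapOfInjective H.subtype H.subtype_injective).symm.surjective))
    ((map_subtype_le A).trans hn) (hco.coprime_dvd_left (card_dvd_of_le (map_subtype_le A)))
  apply hK
  rw [← h1, eq_bot_iff]
  refine iSup₂_le fun a ha => ?_
  rintro k ⟨hk, hc⟩
  exact hf a (map_subtype_le A ha.1) ha.2 k hk (mem_centralizer_singleton_iff.1 hc).symm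

theorem exists_center [Finite G] [Group.IsNilpotent G] {p : ℕ} [hp : Fact p.Prime]
    (h : p ∣ Nat.card G) : ∃ z ∈ center G, z ≠ 1 ∧ ∃ k, z ^ p ^ k = 1 := by
  have h1 : pCore p G ≠ ⊥ := fun e => by
    have := Grp.not_dvd_index_pCore_of_isNilpotent (G := G) p
    rw [e, index_bot] at this
    exact this h
  have := (nontrivial_iff_ne_bot _).2 h1
  have := (Grp.pCore_isPGroup p G).center_nontrivial
  obtain ⟨⟨z, hz⟩, hz1⟩ := exists_ne (1 : center (pCore p G))
  refine ⟨z, ?_, fun e => hz1 (Subtype.ext (Subtype.ext e)), ?_⟩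
  · have : pCore p G ⊔ pPrimeCore p G ≤ centralizer {(z : G)} := by
      refine sup_le (fun a ha => mem_centralizer_singleton_iff.2 ?_)
        (fun a ha => mem_centralizer_singleton_iff.2 ?_)
      · exact congrArg Subtype.val (mem_center_iff.1 hz ⟨a, ha⟩)
      · exact Grp.pCore_le_centralizer_pPrimeCore p G z.2 a ha
    rw [Grp.pCore_sup_pPrimeCore_of_isNilpotent] at this
    exact mem_center_iff.2 fun g => mem_centralizer_singleton_iff.1 (this (mem_top g))
  · obtain ⟨k, hk⟩ := Grp.pCore_isPGroup p G z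
    exact ⟨k, congrArg Subtype.val hk⟩

/-- An element of order 13 generating a normal subgroup modulo `O_{13'}(G)`. -/
theorem exists_x [Finite G] [Group.IsSolvable G] (h : Spec G) (h13 : ∃ x : G, orderOf x = 13)
    (hR : pPrimeCore 13 G ≠ ⊥) : ∃ x : G, orderOf x = 13 ∧ ∀ y : G, ∃ r < 13,
      (x : G ⧸ pPrimeCore 13 G) * y = y * x ^ r := by
  have : Fact (Nat.Prime 13) := ⟨by norm_num⟩
  set R := pPrimeCore 13 G with hRd
  have hnt : Nontrivial (G ⧸ R) := by
    refine QuotientGroup.nontrivial_iff.2 fun e => ?_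
    obtain ⟨x, hx⟩ := h13
    have := Grp.orderOf_coprime_of_mem_pPrimeCore (p := 13) (x := x) (by rw [← hRd, e]; trivial)
    rw [hx] at this
    exact absurd this (by decide)
  have h1 : pCore 13 (G ⧸ R) ≠ ⊥ :=
    Grp.pCore_ne_bot_of_pPrimeCore_eq_bot (Grp.pPrimeCore_quotient_pPrimeCore 13 G)
  obtain ⟨P⟩ : Nonempty (Sylow 13 G) := inferInstance
  have hP : ∀ a ∈ (P : Subgroup G), a ≠ 1 → orderOf a = 13 := by
    intro a ha h1
    obtain ⟨k, hk⟩ := IsPGroup.iff_orderOf.1 P.isPGroup' ⟨a, ha⟩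
    rw [orderOf_mk] at hk
    have h2 : 13 ∣ orderOf a := by
      rw [hk]
      refine dvd_pow_self _ fun e => h1 ?_
      rw [e, pow_zero, orderOf_eq_one_iff] at hk
      exact hk
    rcases h a with e | e | e | e | e | e | e <;> rw [e] at h2 ⊢ <;> revert h2 <;> decide
  have hc : IsCyclic P := by
    have h2 : RankOne P := by
      refine rankOne_of_fpf hR (by rw [normalizer_eq_top]; exact le_top) ?_ fun a ha h1 k hk hc => ?_
      · obtain ⟨k, hk⟩ := IsPGroup.iff_card.1 P.isPGroup'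
        rw [hk]
        exact (Grp.pPrimeCore_coprime 13 G).symm.pow_left _
      · refine h.eq_one hc (Or.inr (hP a ha h1)) ?_
        rw [hP a ha h1]
        exact (Grp.orderOf_coprime_of_mem_pPrimeCore hk).symm
    rcases h2.cyclic_or_quaternion' P.isPGroup' with h | ⟨h, -⟩
    · exact h
    · omega
  have hle : pCore 13 (G ⧸ R) ≤ (P : Subgroup G).map (QuotientGroup.mk' R) :=
    Grp.pCore_le_sylow (P.mapSurjective (QuotientGroup.mk'_surjective R))
  obtain ⟨⟨m, hm⟩, hm1⟩ := ne_bot_iff_exists_ne_one.1 h1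
  obtain ⟨x, hx, rfl⟩ := hle hm
  have hx1 : x ≠ 1 := by
    rintro rfl
    exact hm1 (Subtype.ext (map_one _))
  have hx13 := hP x hx hx1
  have hgen : ∀ a ∈ (P : Subgroup G), ∃ r < 13, a = x ^ r := by
    intro a ha
    have hle' : zpowers x ≤ P := zpowers_le.2 hx
    have hcard : Nat.card P ≤ Nat.card (zpowers x) := by
      obtain ⟨g, hg⟩ := hc.exists_generator
      rw [Nat.card_zpowers, hx13, ← orderOf_eq_card_of_forall_mem_zpowers hg, ← orderOf_coe]
      by_cases h1 : (g : G) = 1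
      · rw [h1, orderOf_one]; norm_num
      · exact (hP g g.2 h1).le
    rw [← eq_of_le_of_card_ge hle' hcard] at ha
    obtain ⟨n, rfl⟩ := (mem_powers_iff_mem_zpowers.2 ha : a ∈ Submonoid.powers x)
    exact ⟨n % 13, Nat.mod_lt _ (by norm_num), by rw [← hx13, pow_mod_orderOf]⟩
  refine ⟨x, hx13, fun y => ?_⟩
  obtain ⟨a, ha, e⟩ := hle ((inferInstance : (pCore 13 (G ⧸ R)).Normal).conj_mem' _ hm y)
  obtain ⟨r, hr, rfl⟩ := hgen a ha
  refine ⟨r, hr, ?_⟩
  simp only [QuotientGroup.mk'_apply, QuotientGroup.mk_pow] at e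
  rw [e]
  exact (fun a b : G ⧸ R => (by group : a * b = b * (b⁻¹ * a * b))) _ _

theorem core_eq_bot [Finite G] [Group.IsSolvable G] (h : Spec G) (h13 : ∃ x : G, orderOf x = 13)
    (h8 : ∃ x : G, orderOf x = 8) (h3 : ∃ x : G, orderOf x = 3) : pPrimeCore 13 G = ⊥ := by
  by_contra hR
  have : Fact (Nat.Prime 13) := ⟨by norm_num⟩
  have : Fact (Nat.Prime 3) := ⟨by norm_num⟩
  have : Fact (Nat.Prime 2) := ⟨by norm_num⟩
  obtain ⟨x, hx, hrel⟩ := exists_x h h13 hR
  set R := pPrimeCore 13 G with hRd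
  have hx13 : x ^ 13 = 1 := by rw [← hx, pow_orderOf_eq_one]
  have hRo : ∀ a ∈ R, (orderOf a).Coprime 13 := fun a ha =>
    Grp.orderOf_coprime_of_mem_pPrimeCore ha
  have hfix : ∀ a ∈ R, Commute x a → a = 1 := fun a ha hc =>
    h.eq_one hc (Or.inr hx) (by rw [hx]; exact (hRo a ha).symm)
  have hnil : Group.IsNilpotent R := by
    refine Solv.isNilpotent_of_inf_centralizer_eq_bot R (a := x)
      (by rw [normalizer_eq_top]; trivial) (p := 13) (by norm_num) hx13 ?_
    rw [eq_bot_iff]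
    rintro a ⟨ha, hc⟩
    exact hfix a ha (mem_centralizer_singleton_iff.1 hc).symm
  have hq := h.of_surj _ (QuotientGroup.mk'_surjective R)
  have hxq : orderOf (x : G ⧸ R) = 13 := by
    refine orderOf_eq_prime (by rw [← QuotientGroup.mk_pow, hx13]; rfl) fun e => ?_
    have := hRo x ((QuotientGroup.eq_one_iff x).1 e)
    rw [hx] at this
    exact absurd this (by decide)
  let Rl : G → ℕ → Prop := fun y r => (x : G ⧸ R) * y = y * x ^ r
  have r0 : ∀ y, ∃ r < 13, Rl y r := hrel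
  have r1 : ∀ y r y' r', Rl y r → Rl y' r' → Rl (y * y') (r * r') := by
    intro y r y' r' h1 h2
    have h3 : ∀ n, (x : G ⧸ R) ^ n * y' = y' * x ^ (n * r') := by
      intro n
      induction n with
      | zero => simp
      | succ n ih =>
        rw [pow_succ', mul_assoc, ih, ← mul_assoc, h2, mul_assoc, ← pow_add, add_mul, one_mul,
          add_comm]
    change (x : G ⧸ R) * (y * y') = y * y' * x ^ (r * r')
    rw [← mul_assoc, h1, mul_assoc, h3, mul_assoc]
  have r2 : ∀ y r, Rl y r → ∀ k, Rl (y ^ k) (r ^ k) := by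
    intro y r h k
    induction k with
    | zero => simp [Rl]
    | succ k ih => rw [pow_succ, pow_succ]; exact r1 _ _ _ _ ih h
  have r3 : ∀ y r, Rl y r → Rl y (r % 13) := by
    intro y r h
    change (x : G ⧸ R) * y = y * x ^ (r % 13)
    have := pow_mod_orderOf (x : G ⧸ R) r
    rw [hxq] at this
    rw [this]; exact h
  have r4 : ∀ y r, Rl y r → r % 13 = 1 → (orderOf y).Coprime 13 → y ∈ R := by
    intro y r h1 h2 h3
    have h4 := r3 _ _ h1
    rw [h2] at h4
    have h5 : Commute (x : G ⧸ R) y := h4.trans (by rw [pow_one])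
    refine (QuotientGroup.eq_one_iff y).1 (hq.eq_one h5 (Or.inr hxq) ?_)
    rw [hxq]
    exact (h3.coprime_dvd_left (orderOf_map_dvd (QuotientGroup.mk' R) y)).symm
  have r5 : ∀ y r, Rl y r → r ^ orderOf y % 13 = 1 := by
    intro y r h1
    have h2 := r2 _ _ h1 (orderOf y)
    rw [pow_orderOf_eq_one] at h2
    have h3 : (x : G ⧸ R) ^ 1 = x ^ r ^ orderOf y := by simpa [Rl] using h2
    rw [pow_eq_pow_iff_modEq, hxq] at h3
    exact h3.symm
  have r6 : ∀ a ∈ R, ∀ y r, Rl y r → Rl (a * y) r := by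
    intro a ha y r h1
    change (x : G ⧸ R) * (a * y) = (a * y) * x ^ r
    rw [(QuotientGroup.eq_one_iff a).2 ha, one_mul]; exact h1
  -- the centre of `R`
  set Z : Subgroup G := (center R).map R.subtype with hZ
  have hZn : Z.Normal := inferInstance
  have hZR : Z ≤ R := map_subtype_le _
  have hZc : ∀ a ∈ R, ∀ w ∈ Z, a * w = w * a := by
    rintro a ha _ ⟨w, hw, rfl⟩
    exact congrArg Subtype.val (mem_center_iff.1 hw ⟨a, ha⟩)
  let _ : CommGroup Z :=
    { (inferInstance : Group Z) with mul_comm := fun a b => Subtype.ext (hZc a (hZR a.2) b b.2) }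
  let F : G →* AddMonoid.End (Additive Z) :=
    { toFun := fun c => MonoidHom.toAdditive (MulAut.conjNormal c : MulAut Z).toMonoidHom
      map_one' := by rw [map_one]; rfl
      map_mul' := fun c d => by rw [map_mul]; rfl }
  have hF : ∀ c (w : Additive Z), ((F c w).toMul : G) = c * (w.toMul : G) * c⁻¹ := fun c w => rfl
  have hFR : ∀ c ∈ R, F c = 1 := by
    intro c hc
    refine AddMonoidHom.ext fun w => Additive.toMul.injective (Subtype.ext ?_)
    refine (hF c w).trans ?_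
    rw [hZc c hc _ w.toMul.2, mul_inv_cancel_right]; rfl
  have hN : ∀ y r d e, 0 < d → Rl y r → (∀ k, 0 < k → k < d → (r ^ k + 12).Coprime 13) →
      (∀ w, e • (∑ k ∈ Finset.range d, F y ^ k) w = 0) → ∀ w ∈ Z, w ^ e = 1 := by
    intro y r d e hd h1 h2 h3 w hw
    have h4 := norm_zero (F x) (F y) (by rw [← map_pow, hx13, map_one]) (fun w hw => by
      refine Additive.toMul.injective (Subtype.ext (hfix _ (hZR w.toMul.2) ?_))
      have := hF x w
      rw [hw] at this
      exact (eq_mul_inv_iff_mul_eq.1 this).symm) r d e hd (by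
        have h5 : (y * x ^ r)⁻¹ * (x * y) ∈ R := QuotientGroup.eq.1 (Eq.symm h1)
        rw [← map_pow, ← map_mul, ← map_mul,
          show x * y = y * x ^ r * ((y * x ^ r)⁻¹ * (x * y)) by group, map_mul (x := y * x ^ r),
          hFR _ h5, mul_one]) h2 h3 (Additive.ofMul ⟨w, hw⟩)
    have h5 : w ^ (13 * e) = 1 := congrArg (fun t : Additive Z => (t.toMul : G)) h4
    exact orderOf_dvd_iff_pow_eq_one.1
      ((hRo w (hZR hw)).dvd_of_dvd_mul_left (orderOf_dvd_of_pow_eq_one h5))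
  have hNp : ∀ y (w : Additive Z) d, ((w.toMul : G) * y) ^ d =
      (((∑ k ∈ Finset.range d, F y ^ k) w).toMul : G) * y ^ d := by
    intro y w d
    induction d with
    | zero => simp
    | succ d ih =>
      rw [pow_succ, ih, end_sum_apply, end_sum_apply, Finset.sum_range_succ, toMul_add, coe_mul,
        ← map_pow, hF]
      group
  obtain ⟨y, hy⟩ := h8
  obtain ⟨s, hs, hys⟩ := r0 y
  have hs8 := r5 _ _ hys
  rw [hy] at hs8
  -- `R` is a 2-group
  have hZ8 : ∀ w ∈ Z, w ^ 8 = 1 := by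
    obtain ⟨d, hd, h1, h2⟩ : ∃ d, 0 < d ∧ s ^ d % 13 = 1 ∧
        ∀ k, 0 < k → k < d → (s ^ k + 12).Coprime 13 := by
      have : ∀ s < 13, s ^ 8 % 13 = 1 → ∃ d < 5, 0 < d ∧ s ^ d % 13 = 1 ∧
          ∀ k < d, 0 < k → (s ^ k + 12).Coprime 13 := by decide
      obtain ⟨d, -, h1, h2, h3⟩ := this s hs hs8
      exact ⟨d, h1, h2, fun k a b => h3 k b a⟩
    have h3 : y ^ d ∈ R := r4 _ _ (r2 _ _ hys d) h1
      (Nat.Coprime.coprime_dvd_left (orderOf_pow_dvd d) (by rw [hy]; decide))
    refine hN y s d 8 hd hys h2 fun w => ?_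
    have h4 := mul_geom_sum (F y) d
    rw [← map_pow, hFR _ h3, sub_self, sub_mul, one_mul, sub_eq_zero] at h4
    have h5 := hF y ((∑ k ∈ Finset.range d, F y ^ k) w)
    rw [show F y ((∑ k ∈ Finset.range d, F y ^ k) w) = (∑ k ∈ Finset.range d, F y ^ k) w from
      DFunLike.congr_fun h4 w] at h5
    exact Additive.toMul.injective (Subtype.ext
      (h.pow8 (eq_mul_inv_iff_mul_eq.1 h5).symm hy))
  have hR3 : ¬ 3 ∣ Nat.card R := by
    intro h3
    obtain ⟨z, hz, h1, k, hk⟩ := exists_center h3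
    have h2 : z ^ 8 = 1 := Subtype.ext (hZ8 z ⟨z, hz, rfl⟩)
    apply h1
    rw [← orderOf_eq_one_iff]
    exact Nat.eq_one_of_dvd_coprimes (Nat.Coprime.pow_left k (by norm_num : Nat.Coprime 3 8))
      (orderOf_dvd_of_pow_eq_one hk) (orderOf_dvd_of_pow_eq_one h2)
  have hR2 : IsPGroup 2 R := by
    intro a
    refine ⟨3, Subtype.ext (orderOf_dvd_iff_pow_eq_one.1 ?_)⟩
    have h1 := hRo a a.2
    have h2 : ¬ 3 ∣ orderOf (a : G) := fun e => hR3 (e.trans (R.orderOf_dvd_natCard a.2))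
    rcases h a with e | e | e | e | e | e | e <;> rw [e] at h1 h2 ⊢ <;> revert h1 h2 <;> decide
  obtain ⟨g, hg3, hg⟩ : ∃ g : G, g ^ 3 = 1 ∧ Rl g 3 := by
    obtain ⟨g, hg⟩ := h3
    obtain ⟨r, hr, h1⟩ := r0 g
    have h2 := r5 _ _ h1
    rw [hg] at h2
    have h4 : g ^ 3 = 1 := by rw [← hg, pow_orderOf_eq_one]
    have : ∀ r < 13, r ^ 3 % 13 = 1 → r = 1 ∨ r = 3 ∨ r = 9 := by decide
    rcases this r hr h2 with rfl | rfl | rfl
    · exact absurd (hg ▸ R.orderOf_dvd_natCard (r4 _ _ h1 rfl (by rw [hg]; decide))) hR3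
    · exact ⟨g, h4, h1⟩
    · exact ⟨g ^ 2, by rw [← pow_mul, mul_comm, pow_mul, h4, one_pow], r3 _ _ (r2 _ _ h1 2)⟩
  have hyR : y ∈ R := by
    by_contra hyR
    obtain ⟨c, hc⟩ : ∃ c, Rl c 10 := by
      have : ∀ s < 13, s ^ 8 % 13 = 1 → s = 1 ∨ s = 12 ∨ s ^ 2 % 13 = 12 := by decide
      rcases this s hs hs8 with rfl | rfl | h1
      · exact absurd (r4 _ _ hys rfl (by rw [hy]; decide)) hyR
      · exact ⟨_, r3 _ _ (r1 _ _ _ _ hg hys)⟩
      · have h2 := r3 _ _ (r2 _ _ hys 2)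
        rw [h1] at h2
        exact ⟨_, r3 _ _ (r1 _ _ _ _ hg h2)⟩
    have h6 : ∀ c, Rl c 10 → c ^ 6 = 1 := by
      intro c hc
      have h1 := r5 _ _ hc
      rw [← orderOf_dvd_iff_pow_eq_one]
      rcases h c with e | e | e | e | e | e | e <;> rw [e] at h1 ⊢ <;> revert h1 <;> decide
    have h1 := hN c 10 6 1 (by norm_num) hc
      (fun k h1 h2 => by interval_cases k <;> norm_num) (fun w => by
        have h2 := hNp c w 6
        rw [h6 _ hc, h6 _ (r6 _ (hZR w.toMul.2) _ _ hc), mul_one] at h2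
        rw [one_smul]
        exact Additive.toMul.injective (Subtype.ext h2.symm))
    have := (nontrivial_iff_ne_bot _).2 hR
    have := hR2.center_nontrivial
    obtain ⟨⟨z, hz⟩, hz1⟩ := exists_ne (1 : center R)
    exact hz1 (Subtype.ext (Subtype.ext (by simpa using h1 z ⟨z, hz, rfl⟩)))
  have h4 := exp_four R hR2 hx13 hfix hg3 (by
    have h5 : (g * x ^ 3)⁻¹ * (x * g) ∈ R := QuotientGroup.eq.1 (Eq.symm hg)
    simpa [mul_assoc] using h5) (fun a ha => by
      have h1 := r5 _ _ (r6 a ha _ _ hg)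
      rw [← orderOf_dvd_iff_pow_eq_one]
      rcases h (a * g) with e | e | e | e | e | e | e <;> rw [e] at h1 ⊢ <;> revert h1 <;> decide)
    y hyR
  have := orderOf_dvd_of_pow_eq_one h4
  rw [hy] at this
  exact absurd this (by decide)

end Cfsg.Agent.Crit
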