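import Mathlib
import Cfsg.Agent.Crit.Two
import Cfsg.Agent.S3742
import Cfsg.Agent.Solv.Frobenius

/-!
# Frobenius groups `13 ^ 4 : 2S₄`
-/

set_option autoImplicit false

namespace Cfsg.Agent.Crit

open Subgroup FGS.FrobCompl

theorem card_le_four {V : Type*} [AddCommGroup V] [Module (ZMod 13) V] [Finite V] [Nontrivial V]
    (S T : Module.End (ZMod 13) V) (hS : S * S = S - 1) (hT : T ^ 4 = -1)
    (hST : (S * T) ^ 2 = -1)
    (hirr : ∀ U : Submodule (ZMod 13) V, (∀ u ∈ U, S u ∈ U) → (∀ u ∈ U, T u ∈ U) → U = ⊥ ∨ U = ⊤) :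
    Nat.card V ≤ 13 ^ 4 := by
  have e1 : (4 : ZMod 13) = 1 - 10 := by decide
  have e2 : (4 : ZMod 13) * 10 = 1 := by decide
  have : Fact (Nat.Prime 13) := ⟨by norm_num⟩
  obtain ⟨l, v, hv0, hv⟩ : ∃ (l : ZMod 13) (v : V), v ≠ 0 ∧ S v = l • v := by
    obtain ⟨w, hw⟩ := exists_ne (0 : V)
    by_cases h : S w = (10 : ZMod 13) • w
    · exact ⟨10, w, hw, h⟩
    · refine ⟨4, S w - (10 : ZMod 13) • w, sub_ne_zero.2 h, ?_⟩
      have := LinearMap.congr_fun hS w
      simp only [Module.End.mul_apply, LinearMap.sub_apply, Module.End.one_apply] at this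
      rw [map_sub, map_smul, this]
      rw [smul_sub, smul_smul, e2, e1]
      module
  set T' := -T ^ 3 with hT'
  have t1 : T * T' = 1 := by rw [hT', mul_neg, ← pow_succ', hT, neg_neg]
  have t2 : T' * T = 1 := by rw [hT', neg_mul, ← pow_succ, hT, neg_neg]
  have s1 : S * (1 - S) = 1 := by rw [mul_sub, hS]; simp
  have s2 : (1 - S) * S = 1 := by rw [sub_mul, hS]; simp
  have e1 : S * T = T' * S - T' := by
    have : S * T * (S * T) * (T' * (1 - S)) = S * T := by
      rw [mul_assoc, mul_assoc S T (T' * _), ← mul_assoc T T', t1, one_mul, s1, mul_one]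
    rw [← this, ← pow_two, hST]; noncomm_ring
  have e2 : T * S = S * T' - T' := by
    have : (1 - S) * (S * T * (S * T)) * T' = T * S := by
      rw [← mul_assoc, ← mul_assoc, ← mul_assoc, s2, one_mul, mul_assoc, t1, mul_one]
    rw [← this, ← pow_two, hST]; noncomm_ring
  set δ := T + T' with hδ
  have d1 : S * δ = δ * S := by rw [hδ, mul_add, add_mul, e1, e2]; abel
  have d2 : T * δ = δ * T := by rw [hδ, mul_add, add_mul, t1, t2]
  have d3 : T * T = δ * T - 1 := by rw [hδ, add_mul, t2]; abel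
  have d4 : δ * δ = 1 + 1 := by
    have : T' * T' = -(T * T) := by
      rw [hT', neg_mul_neg, ← pow_add, show 3 + 3 = 4 + 2 from rfl, pow_add, hT, pow_two]; simp
    rw [hδ, add_mul, mul_add, mul_add, t1, t2, this]; abel
  have d5 : T' = δ - T := by rw [hδ]; abel
  clear_value δ
  have a1 : ∀ u, S (δ u) = δ (S u) := LinearMap.congr_fun d1
  have a2 : ∀ u, T (δ u) = δ (T u) := LinearMap.congr_fun d2
  have a3 : ∀ u, T (T u) = δ (T u) - u := LinearMap.congr_fun d3
  have a4 : ∀ u, δ (δ u) = u + u := LinearMap.congr_fun d4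
  have a5 : ∀ u, S (T u) = (δ (S u) - T (S u)) - (δ u - T u) := by
    rw [d5] at e1
    exact LinearMap.congr_fun e1
  let b : Fin 4 → V := ![v, δ v, T v, δ (T v)]
  set U := Submodule.span (ZMod 13) (Set.range b)
  have m0 : v ∈ U := Submodule.subset_span ⟨0, rfl⟩
  have m1 : δ v ∈ U := Submodule.subset_span ⟨1, rfl⟩
  have m2 : T v ∈ U := Submodule.subset_span ⟨2, rfl⟩
  have m3 : δ (T v) ∈ U := Submodule.subset_span ⟨3, rfl⟩
  have key : ∀ X : Module.End (ZMod 13) V, X v ∈ U → X (δ v) ∈ U → X (T v) ∈ U →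
      X (δ (T v)) ∈ U → ∀ u ∈ U, X u ∈ U := by
    intro X h0 h1 h2 h3
    change U ≤ U.comap X
    refine Submodule.span_le.2 ?_
    rintro _ ⟨i, rfl⟩
    fin_cases i
    exacts [h0, h1, h2, h3]
  have kδ := key δ m1 (by rw [a4]; exact add_mem m0 m0) m3 (by rw [a4]; exact add_mem m2 m2)
  have kT := key T m2 (by rw [a2]; exact m3) (by rw [a3]; exact sub_mem m3 m0)
    (by rw [a2, a3]; exact kδ _ (sub_mem m3 m0))
  have k0 : S v ∈ U := by rw [hv]; exact U.smul_mem _ m0
  have k2 : S (T v) ∈ U := by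
    rw [a5]; exact sub_mem (sub_mem (kδ _ k0) (kT _ k0)) (sub_mem m1 m2)
  have kS := key S k0 (by rw [a1]; exact kδ _ k0) k2 (by rw [a1]; exact kδ _ k2)
  rcases hirr U kS kT with h | h
  · rw [h] at m0; exact absurd m0 hv0
  · have := finrank_le_of_span_eq_top h
    rw [Module.natCard_eq_pow_finrank (K := ZMod 13), Nat.card_zmod]
    exact Nat.pow_le_pow_right (by norm_num) (by simpa using this)

variable {G : Type*} [Group G]

theorem exists_perm_four [Finite G] [Group.IsSolvable G] (h : Spec G) (hr : RankOne G)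
    (h13 : ∀ x : G, orderOf x ≠ 13) (h8 : ∃ x : G, orderOf x = 8) (h3 : ∃ x : G, orderOf x = 3) :
    ∃ f : G →* Equiv.Perm (Fin 4), Function.Surjective f ∧ Nat.card f.ker = 2 := by
  have : Fact (Nat.Prime 3) := ⟨by norm_num⟩
  have : Fact (Nat.Prime 2) := ⟨by norm_num⟩
  obtain ⟨y, hy⟩ := h8
  obtain ⟨g, hg⟩ := h3
  have hg1 : g ≠ 1 := by rintro rfl; simp at hg
  have a1 : ∀ M : Subgroup G, M.Normal → IsPGroup 3 M → M = ⊥ := by
    intro M hM hp
    have hc : IsCyclic M := by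
      rcases hr.cyclic_or_quaternion hp with h | ⟨h, -⟩
      · exact h
      · omega
    obtain ⟨m, hm⟩ := hc.exists_generator
    have h1 := orderOf_eq_card_of_forall_mem_zpowers hm
    obtain ⟨k, hk⟩ := IsPGroup.iff_card.1 hp
    by_contra hb
    have h2 : Nat.card M = 3 := by
      have h3 : 3 ∣ Nat.card M := by
        rw [hk]
        refine dvd_pow_self _ fun e => hb ?_
        rwa [e, pow_zero, card_eq_one] at hk
      have h4 : ¬ 2 ∣ Nat.card M := fun e => by
        rw [hk] at e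
        have := Nat.prime_two.dvd_of_dvd_pow e
        omega
      have h5 := h m
      rw [orderOf_coe, h1] at h5
      unfold Om at h5
      omega
    have h3 : (MulAut.conjNormal y : MulAut M) ^ 2 = 1 := by
      have := pow_card_eq_one' (x := (MulAut.conjNormal y : MulAut M))
      rwa [IsCyclic.card_mulAut, h2] at this
    rw [← map_pow] at h3
    have h4 : y ^ 2 * m * (y ^ 2)⁻¹ = m := congrArg Subtype.val (DFunLike.congr_fun h3 m)
    have h5 : orderOf (y ^ 2) = 4 := by rw [orderOf_pow' _ (by norm_num), hy]; rfl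
    have h6 := h.eq_one (mul_inv_eq_iff_eq_mul.1 h4) (Or.inl (by rw [h5])) (by
      rw [h5, orderOf_coe, h1, h2]; decide)
    rw [← orderOf_eq_one_iff, orderOf_coe, h1, h2] at h6
    omega
  have a2 : ∀ N : Subgroup G, N.Normal → IsZGroup N → g ∉ N ∧ (∀ n ∈ N, n ^ 2 = 1) ∧
      Nat.card N ≤ 2 := by
    intro N hN hZ
    have b1 : ¬ 3 ∣ Nat.card N := by
      intro h3
      obtain ⟨P, M, hM, hc⟩ := hasNormalPComplement_two_of_isZGroup (G := N)
      have hP : IsPGroup 3 M := by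
        intro a
        refine ⟨1, Subtype.ext (Subtype.ext (orderOf_dvd_iff_pow_eq_one.1 ?_))⟩
        have h1 : ¬ 2 ∣ orderOf ((a : N) : G) := fun e => P.not_dvd_index (by
          rw [hc.index_eq_card]
          rw [orderOf_coe, orderOf_coe] at e
          exact e.trans (orderOf_dvd_natCard a))
        have h2 := h13 ((a : N) : G)
        rcases h ((a : N) : G) with e | e | e | e | e | e | e <;> rw [e] at h1 h2 ⊢ <;>
          revert h1 h2 <;> decide
      have h1 := a1 _ inferInstance (Grp.map_pCore_isPGroup 3 N.subtype)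
      rw [map_eq_bot_iff_of_injective _ N.subtype_injective] at h1
      have h2 := Grp.le_pCore hM hP
      rw [h1, le_bot_iff] at h2
      obtain ⟨k, hk⟩ := IsPGroup.iff_card.1 P.isPGroup'
      rw [← hc.card_mul_card, h2, card_bot, one_mul, hk] at h3
      have := Nat.prime_three.dvd_of_dvd_pow h3
      omega
    have b2 : IsPGroup 2 N := by
      intro a
      refine ⟨3, Subtype.ext (orderOf_dvd_iff_pow_eq_one.1 ?_)⟩
      have h1 := h13 a
      have h2 : ¬ 3 ∣ orderOf (a : G) := fun e => b1 (e.trans (N.orderOf_dvd_natCard a.2))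
      rcases h a with e | e | e | e | e | e | e <;> rw [e] at h1 h2 ⊢ <;> revert h1 h2 <;> decide
    have b3 : IsCyclic N := by
      have := IsPGroup.isCyclic_of_isZGroup (G := N) (P := ⊤) (b2.to_subgroup ⊤)
      exact isCyclic_of_surjective _ (topEquiv (G := N)).surjective
    have b4 : (MulAut.conjNormal g : MulAut N) = 1 := by
      obtain ⟨k, hk⟩ := isPGroup_mulAut_of_isCyclic b2 (MulAut.conjNormal g)
      rw [← orderOf_eq_one_iff]
      exact Nat.eq_one_of_dvd_coprimes (Nat.Coprime.pow_left k (by norm_num : Nat.Coprime 2 3))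
        (orderOf_dvd_of_pow_eq_one hk) (hg ▸ orderOf_map_dvd _ g)
    have b5 : ∀ n ∈ N, n ^ 2 = 1 := by
      intro n hn
      have h4 : g * n * g⁻¹ = n := congrArg Subtype.val (DFunLike.congr_fun b4 (⟨n, hn⟩ : N))
      have h2 : ¬ 3 ∣ orderOf n := fun e => b1 (e.trans (N.orderOf_dvd_natCard hn))
      have h5 : ¬ 4 ∣ orderOf n := fun e => hg1 (h.eq_one (mul_inv_eq_iff_eq_mul.1 h4).symm
        (Or.inl e) (by rw [hg]; exact ((Nat.Prime.coprime_iff_not_dvd Nat.prime_three).2 h2).symm))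
      have h1 := h13 n
      rw [← orderOf_dvd_iff_pow_eq_one]
      rcases h n with e | e | e | e | e | e | e <;> rw [e] at h1 h2 h5 ⊢ <;> revert h1 h2 h5 <;>
        decide
    refine ⟨fun e => b1 (hg ▸ N.orderOf_dvd_natCard e), b5, ?_⟩
    obtain ⟨m, hm⟩ := b3.exists_generator
    rw [← orderOf_eq_card_of_forall_mem_zpowers hm, ← orderOf_coe]
    exact orderOf_le_of_pow_eq_one (by norm_num) (b5 m m.2)
  have a3 : y ^ 12 ≠ 1 := fun e => by
    have := orderOf_dvd_of_pow_eq_one e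
    rw [hy] at this
    exact absurd this (by decide)
  obtain ⟨ε⟩ := S3742.result
  rcases hr.exists_solvable ε with hz | ⟨f, hf, hz⟩ | ⟨f, hf, hz⟩ | ⟨f, hf, hz⟩
  · exact absurd (mem_top g) (a2 ⊤ inferInstance inferInstance).1
  · refine absurd ?_ (a2 f.ker inferInstance hz).1
    rw [MonoidHom.mem_ker, ← orderOf_eq_one_iff]
    refine Nat.eq_one_of_dvd_coprimes (by norm_num : Nat.Coprime 3 4) (hg ▸ orderOf_map_dvd f g) ?_
    have := orderOf_dvd_natCard (f g)
    rwa [DihedralGroup.nat_card] at this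
  · refine absurd ?_ a3
    have : ∀ σ : Equiv.Perm (Fin 4), Equiv.Perm.sign σ = 1 → σ ^ 6 = 1 := by decide +kernel
    rw [show 12 = 6 * 2 from rfl, pow_mul]
    refine (a2 f.ker inferInstance hz).2.1 _ ?_
    rw [MonoidHom.mem_ker, map_pow]
    exact Subtype.ext (this _ (f y).2)
  · refine ⟨f, hf, le_antisymm (a2 f.ker inferInstance hz).2.2 ?_⟩
    have : ∀ σ : Equiv.Perm (Fin 4), σ ^ 12 = 1 := by decide +kernel
    refine (one_lt_card_iff_ne_bot _).2 fun e => a3 ?_
    rw [← mem_bot, ← e, MonoidHom.mem_ker, map_pow]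
    exact this _

theorem perm_words : ∃ s t : Equiv.Perm (Fin 4), s ^ 3 = 1 ∧ s ≠ 1 ∧ t ^ 4 = 1 ∧ t ^ 2 ≠ 1 ∧
    (s * t) ^ 2 = 1 ∧ s * t ≠ 1 ∧ ∀ σ : Equiv.Perm (Fin 4), ∃ (a c : Fin 4) (b d : Fin 3),
      σ = t ^ a.val * s ^ b.val * t ^ c.val * s ^ d.val := by
  refine ⟨Equiv.swap 1 3 * Equiv.swap 1 2, Equiv.swap 0 1 * Equiv.swap 1 3 * Equiv.swap 3 2, ?_⟩
  decide +kernel

theorem card_kernel_le [Finite G] {K H : Subgroup G} [hn : K.Normal] [hK : IsMulCommutative K]
    (hK1 : K ≠ ⊥) (hp : ∀ x ∈ K, x ^ 13 = 1) (hmin : ∀ N : Subgroup G, N.Normal → N ≤ K → N = ⊥ ∨ N = K)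
    (hsup : K ⊔ H = ⊤) (hf : ∀ h ∈ H, h ≠ 1 → ∀ k ∈ K, Commute h k → k = 1)
    (f : H →* Equiv.Perm (Fin 4)) (hs : Function.Surjective f) {z : H} (hz1 : z ≠ 1)
    (hz : z ^ 2 = 1) (hker : ∀ a, f a = 1 ↔ a = 1 ∨ a = z) (hu : ∀ a : H, a ^ 2 = 1 → f a = 1) :
    Nat.card K ≤ 13 ^ 4 := by
  obtain ⟨s₀, t₀, s3, s1, t4, t2, st2, st1, hw⟩ := perm_words
  have hzc : ∀ a : H, Commute z a := by
    intro a
    rcases (hker (a * z * a⁻¹)).1 (by simp [(hker z).2 (Or.inr rfl)]) with e | e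
    · exact absurd (by simpa using e) hz1
    · exact (mul_inv_eq_iff_eq_mul.1 e).symm
  obtain ⟨t, rfl⟩ := hs t₀
  obtain ⟨s, hs0, hs3⟩ : ∃ s : H, f s = s₀ ∧ s ^ 3 = z := by
    obtain ⟨s, rfl⟩ := hs s₀
    rcases (hker (s ^ 3)).1 (by rw [map_pow, s3]) with e | e
    · refine ⟨z * s, by rw [map_mul, (hker z).2 (Or.inr rfl), one_mul], ?_⟩
      rw [(hzc s).mul_pow, e, mul_one, pow_succ, hz, one_mul]
    · exact ⟨s, rfl, e⟩
  subst hs0
  have ht4 : t ^ 4 = z := by
    refine ((hker (t ^ 4)).1 (by rw [map_pow, t4])).resolve_left fun e => t2 ?_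
    rw [← map_pow]
    exact hu _ (by rw [← pow_mul]; exact e)
  have hst : (s * t) ^ 2 = z := by
    refine ((hker _).1 (by rw [map_pow, map_mul, st2])).resolve_left fun e => st1 ?_
    rw [← map_mul]
    exact hu _ e
  let _ : CommGroup K := { (inferInstance : Group K) with mul_comm := hK.1.1 }
  let _ : Module (ZMod 13) (Additive K) := AddCommGroup.zmodModule fun w =>
    Additive.toMul.injective (Subtype.ext (hp _ w.toMul.2))
  let F : G →* Module.End (ZMod 13) (Additive K) :=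
    { toFun := fun c => AddMonoidHom.toZModLinearMap 13
        (MonoidHom.toAdditive (MulAut.conjNormal c : MulAut K).toMonoidHom)
      map_one' := by rw [map_one]; rfl
      map_mul' := fun c d => by rw [map_mul]; rfl }
  have hF : ∀ c (w : Additive K), ((F c w).toMul : G) = c * (w.toMul : G) * c⁻¹ := fun c w => rfl
  have hfix : ∀ c : H, c ≠ 1 → ∀ w, F c w = w → w = 0 := by
    intro c hc w hw
    refine Additive.toMul.injective (Subtype.ext (hf c c.2 (fun e => hc (Subtype.ext e)) _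
      w.toMul.2 ?_))
    have := hF c w
    rw [hw] at this
    exact (eq_mul_inv_iff_mul_eq.1 this).symm
  have hFz : F z = -1 := by
    ext1 w
    rw [LinearMap.neg_apply, Module.End.one_apply, eq_neg_iff_add_eq_zero]
    refine hfix z hz1 _ ?_
    rw [map_add, ← Module.End.mul_apply, ← map_mul, ← coe_mul, ← pow_two, hz, coe_one, map_one,
      Module.End.one_apply, add_comm]
  have := (nontrivial_iff_ne_bot _).2 hK1
  refine card_le_four (V := Additive K) (F s) (F t) ?_ ?_ ?_ fun U hUs hUt => ?_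
  · have h1 : F s ^ 3 = -1 := by rw [← map_pow, ← coe_pow, hs3, hFz]
    have h2 : s ^ 2 ≠ 1 := fun e => s1 (hu s e)
    have h3 : F s * (F s * F s - F s + 1) = -(F s * F s - F s + 1) := by
      have : F s * (F s * F s - F s + 1) + (F s * F s - F s + 1) = F s ^ 3 + 1 := by noncomm_ring
      rw [eq_neg_iff_add_eq_zero, this, h1, neg_add_cancel]
    have h4 : F s * F s - F s + 1 = 0 := by
      ext1 w
      refine hfix _ h2 _ ?_
      rw [coe_pow, map_pow, ← Module.End.mul_apply, pow_two, mul_assoc, h3, mul_neg, h3, neg_neg]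
    rw [← sub_eq_zero, ← h4]; abel
  · rw [← map_pow, ← coe_pow, ht4, hFz]
  · rw [← map_mul, ← map_pow, ← coe_mul, ← coe_pow, hst, hFz]
  · let W : Subgroup G := (AddSubgroup.toSubgroup' U.toAddSubgroup).map K.subtype
    have hWK : W ≤ K := map_subtype_le _
    have hW : ∀ w : Additive K, (w.toMul : G) ∈ W ↔ w ∈ U := fun w =>
      ⟨fun ⟨a, ha, e⟩ => by
        obtain rfl : a = w.toMul := Subtype.ext e
        exact ha, fun h => ⟨w.toMul, h, rfl⟩⟩
    have hN : ∀ c : G, (∀ u ∈ U, F c u ∈ U) → c ∈ normalizer (W : Set G) := by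
      intro c hc
      refine mem_normalizer_fintype fun n hn => ?_
      exact (hW (F c (Additive.ofMul ⟨n, hWK hn⟩))).2 (hc _ ((hW _).1 hn))
    have h1 := hN _ hUs
    have h2 := hN _ hUt
    have h3 : W.Normal := by
      rw [← normalizer_eq_top_iff, eq_top_iff, ← hsup]
      refine sup_le (fun k hk => mem_normalizer_fintype fun n hn => ?_) fun a ha => ?_
      · have : k * n = n * k := congrArg Subtype.val (hK.1.1 ⟨k, hk⟩ ⟨n, hWK hn⟩)
        rwa [this, mul_inv_cancel_right]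
      · obtain ⟨i, j, k, l, e⟩ := hw (f ⟨a, ha⟩)
        have h4 : ((t ^ i.val * s ^ k.val * t ^ j.val * s ^ l.val : H) : G) ∈
            normalizer (W : Set G) :=
          mul_mem (mul_mem (mul_mem (pow_mem h2 _) (pow_mem h1 _)) (pow_mem h2 _)) (pow_mem h1 _)
        have h5 : (z : G) ∈ normalizer (W : Set G) := hs3 ▸ pow_mem h1 3
        rw [← mul_mem_cancel_left (inv_mem h4)]
        rcases (hker ((t ^ i.val * s ^ k.val * t ^ j.val * s ^ l.val)⁻¹ * ⟨a, ha⟩)).1
          (by simp only [map_mul, map_inv, map_pow]; rw [← e, inv_mul_cancel]) with e | e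
        · exact (congrArg (fun b : H => (b : G) ∈ normalizer (W : Set G)) e).mpr (one_mem _)
        · exact (congrArg (fun b : H => (b : G) ∈ normalizer (W : Set G)) e).mpr h5
    rcases hmin W h3 hWK with e | e
    · refine Or.inl (eq_bot_iff.2 fun w hw => ?_)
      have := (hW w).2 hw
      rw [e] at this
      exact Additive.toMul.injective (Subtype.ext this)
    · exact Or.inr (eq_top_iff.2 fun w _ => (hW w).1 (e.ge w.toMul.2))

theorem frob_case [Finite G] [Group.IsSolvable G] (h : Spec G)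
    (hall : ∀ n, Om n → ∃ g : G, orderOf g = n)
    (crit : ∀ (N : Subgroup G) [N.Normal], N ≠ ⊥ → ¬ ∀ n, Om n → ∃ g : G ⧸ N, orderOf g = n) :
    ∃ (K H : Subgroup G), K.Normal ∧ IsMulCommutative K ∧ (∀ x ∈ K, x ^ 13 = 1) ∧
      Nat.card K = 13 ^ 4 ∧ K ⊓ H = ⊥ ∧ K ⊔ H = ⊤ ∧
      (∀ h ∈ H, h ≠ 1 → ∀ x ∈ K, h * x * h⁻¹ = x → x = 1) ∧
      ∃ (Z : Subgroup ↥H) (_ : Z.Normal), Nat.card Z = 2 ∧
        (∀ Z' : Subgroup ↥H, Nat.card Z' = 2 → Z' = Z) ∧
        Nonempty (↥H ⧸ Z ≃* Equiv.Perm (Fin 4)) := by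
  have : Fact (Nat.Prime 13) := ⟨by norm_num⟩
  have hR := core_eq_bot h (hall 13 (by decide)) (hall 8 (by decide)) (hall 3 (by decide))
  have : Nontrivial G := by
    obtain ⟨g, hg⟩ := hall 2 (by decide)
    exact ⟨g, 1, by rintro rfl; simp at hg⟩
  obtain ⟨p, K, pp, hn, hK1, hK, hp, hP, hmin⟩ := Grp.exists_minNormal_elementaryAbelian G
  obtain rfl : p = 13 := by
    by_contra e
    have : Fact p.Prime := ⟨pp⟩
    exact hK1 (Grp.pPrimeCore_eq_bot_iff.1 hR K hn (Grp.coprime_card_of_isPGroup_of_ne e hP))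
  have hord : ∀ g : G, (orderOf g).Coprime 13 → orderOf (g : G ⧸ K) = orderOf g := by
    intro g hg
    refine Nat.dvd_antisymm (orderOf_map_dvd (QuotientGroup.mk' K) g) (hg.dvd_of_dvd_mul_right ?_)
    rw [orderOf_dvd_iff_pow_eq_one, pow_mul]
    refine hp _ ((QuotientGroup.eq_one_iff _).1 ?_)
    rw [QuotientGroup.mk_pow, pow_orderOf_eq_one]
  have hall' : ∀ n, Om n → n ≠ 13 → ∃ g : G ⧸ K, orderOf g = n := by
    intro n h1 h2
    obtain ⟨g, rfl⟩ := hall n h1
    refine ⟨g, hord g ?_⟩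
    rcases h1 with e | e | e | e | e | e | e <;> rw [e] at h2 ⊢ <;> revert h2 <;> decide
  have hi : ¬ 13 ∣ K.index := fun e => crit K hK1 fun n h1 => by
    by_cases h2 : n = 13
    · exact h2 ▸ exists_prime_orderOf_dvd_card' 13 e
    · exact hall' n h1 h2
  obtain ⟨k, hk⟩ := IsPGroup.iff_card.1 hP
  have hco : (Nat.card K).Coprime K.index := by
    rw [hk]; exact ((Nat.Prime.coprime_iff_not_dvd pp).2 hi).pow_left _
  obtain ⟨H, hc⟩ := exists_right_complement'_of_coprime hco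
  have hH13 : ∀ a : H, orderOf a ≠ 13 := fun a e => hi (by
    rw [hc.symm.index_eq_card, ← e]; exact orderOf_dvd_natCard a)
  have hf : ∀ a ∈ H, a ≠ 1 → ∀ k ∈ K, Commute a k → k = 1 := by
    intro a ha h1 k hk hc
    by_contra h2
    have h3 := orderOf_eq_prime (hp k hk) h2
    have h4 := h.pow13 hc.symm h3
    exact hH13 ⟨a, ha⟩ (by rw [orderOf_mk]; exact orderOf_eq_prime h4 h1)
  have hr : RankOne H := rankOne_of_fpf hK1 (by rw [normalizer_eq_top]; exact le_top)
    (by rw [← hc.symm.index_eq_card]; exact hco.symm) hf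
  have hallH : ∀ n, Om n → n ≠ 13 → ∃ g : H, orderOf g = n := by
    intro n h1 h2
    obtain ⟨g, rfl⟩ := hall' n h1 h2
    exact ⟨hc.symm.QuotientMulEquiv g, MulEquiv.orderOf_eq _ g⟩
  obtain ⟨f, hs, hker⟩ := exists_perm_four (h.sub H) hr hH13 (hallH 8 (by decide) (by decide))
    (hallH 3 (by decide) (by decide))
  obtain ⟨⟨z, hzk⟩, hz1, hzu⟩ := (Nat.card_eq_two_iff' (1 : f.ker)).1 hker
  have hz1' : z ≠ 1 := fun e => hz1 (Subtype.ext e)
  have hk' : ∀ a, f a = 1 ↔ a = 1 ∨ a = z := fun a => ⟨fun ha => by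
    by_cases e : a = 1
    · exact Or.inl e
    · exact Or.inr (congrArg Subtype.val (hzu ⟨a, ha⟩ fun e' => e (congrArg Subtype.val e'))), by
      rintro (rfl | rfl)
      exacts [map_one _, hzk]⟩
  have hz2 : z ^ 2 = 1 := by
    have := pow_card_eq_one' (x := (⟨z, hzk⟩ : f.ker))
    rw [hker] at this
    exact congrArg Subtype.val this
  have hu : ∀ a : H, a ^ 2 = 1 → f a = 1 := by
    intro a ha
    have h1 : Commute z a := by
      rcases (hk' (a * z * a⁻¹)).1 (by simp [show f z = 1 from hzk]) with e | e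
      · exact absurd (by simpa using e) hz1'
      · exact (mul_inv_eq_iff_eq_mul.1 e).symm
    exact zpowers_le.2 hzk (hr.mem_zpowers h1 (by
      rw [orderOf_eq_prime hz2 hz1']; exact orderOf_dvd_of_pow_eq_one ha))
  have hle := card_kernel_le hK1 hp hmin hc.sup_eq_top hf f hs hz1' hz2 hk' hu
  refine ⟨K, H, hn, hK, hp, ?_, hc.disjoint.eq_bot, hc.sup_eq_top,
    fun a ha h1 x hx e => hf a ha h1 x hx (mul_inv_eq_iff_eq_mul.1 e), f.ker, inferInstance, hker,
    fun Z hZ => ?_, ⟨QuotientGroup.quotientKerEquivOfSurjective f hs⟩⟩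
  · have h1 : Nat.card H ∣ Nat.card K - 1 := Solv.Frob.card_dvd_card_sub_one
      (by rw [normalizer_eq_top]; exact le_top) fun a ha h1 => eq_bot_iff.2 fun x hx =>
        hf a ha h1 x hx.1 (mem_centralizer_singleton_iff.1 hx.2).symm
    have h2 : Nat.card H = 48 := by
      rw [← f.ker.card_mul_index, index_ker, MonoidHom.range_eq_top.2 hs, card_top, hker,
        Nat.card_perm, Nat.card_eq_fintype_card, Fintype.card_fin]
      rfl
    have h3 : k ≠ 0 := by
      rintro rfl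
      exact hK1 (card_eq_one.1 hk)
    rw [hk] at hle h1 ⊢
    rw [h2] at h1
    have h4 : k ≤ 4 := (Nat.pow_le_pow_iff_right (by norm_num)).1 hle
    interval_cases k <;> first | rfl | omega
  · refine eq_of_le_of_card_ge (fun a ha => hu a ?_) (by rw [hZ, hker])
    have := pow_card_eq_one' (x := (⟨a, ha⟩ : Z))
    rw [hZ] at this
    exact congrArg Subtype.val this

end Cfsg.Agent.Crit
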